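import Mathlib
import Cfsg.Agent.Inv.QGroup
import Cfsg.Agent.Block.DihBlock
import Cfsg.Agent.ABG.Wr

/-! Brauer's order formula for a simple group with wreathed Sylow 2-subgroups
(guide ABG_1_char). -/

set_option autoImplicit false

namespace Cfsg.Agent.ABG

open Cfsg Subgroup

/-- `Q = ± q` with `Q ≡ 1 mod 4`. -/
theorem order_W {G : Type*} [Group G] [Finite G] [IsSimpleGroup G] (hG : ¬ IsMulCommutative G)
    (S : Sylow 2 G) (hS : IsWreathed (S : Subgroup G))
    {z : G} (hz : orderOf z = 2) (hzS : z ∈ (S : Subgroup G))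
    (hzc : ∀ s ∈ (S : Subgroup G), s * z = z * s)
    {T : Subgroup G} (hTS : T ≤ S) (hT : IsKleinFour T)
    {F : Type*} [Field F] [Fintype F] (hF : Odd (Fintype.card F))
    (hL : ∃ N : Subgroup (centralizer ({z} : Set G) ⧸ oddCore (centralizer ({z} : Set G))),
      N.Normal ∧ Nonempty (N ≃* Matrix.SpecialLinearGroup (Fin 2) F))
    {Q : ℤ} (hQ : Q.natAbs = Fintype.card F) (hQ4 : Q % 4 = 1) :
    (Nat.card G : ℤ) * (Nat.card (centralizer (T : Set G)) : ℤ) ^ 2 * (Q + 1) ^ 2 =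
      (Nat.card (centralizer ({z} : Set G)) : ℤ) ^ 3 * (Q ^ 2 + Q + 1) := by
  obtain ⟨Q', hQ', h4, -, h, -⟩ := order_wr hG S hS z hz hzS hzc T hTS hT F hF hL
  obtain rfl : Q = Q' := by omega
  exact h

end Cfsg.Agent.ABG
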